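import Cfsg.Agent.Lib.O83.B
import Cfsg.Agent.Lib.O8.St
import Cfsg.Agent.Lib.Chev.Cores

/-! Root elements of `Ω₈⁺(2)`: relations and the centraliser of a root element. -/

set_option autoImplicit false

namespace Cfsg.Lib.O83

open Subgroup Cfsg.Lib.BG Cfsg.Lib.Chev Cfsg.Lib.Chev.RootSys Cfsg.Lib.Orth Cfsg.Lib.O8
open scoped Cfsg.Lib.Transfer

/-- roots of the parabolic subgroup -/
def Par : Ix → Prop
  | .inl a => a ≠ (0, true)
  | .inr s => s 0 = false

instance decPar (a : Ix) : Decidable (Par a) := by rcases a with a | a <;> unfold Par <;> infer_instance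

/-- the relations -/
structure RR {G : Type*} [Group G] (y : Ix → G) : Prop where
  sq : ∀ r, y r * y r = 1
  cm : ∀ r s, Cm r s → Commute (y r) (y s)
  ad : ∀ r s k, Ad r s k → y s * y r = y r * y s * y k
  br : ∀ i, (y (.inl (i, false)) * y (.inl (i, true))) ^ 3 = 1
  ne : ∀ r, y r ≠ 1
  gen : ∀ K : Subgroup G, (∀ r, Par r → y r ∈ K) → 𝐂[y (.inl (0, false))] ≤ K
  co : IsCoatom 𝐂[y (.inl (0, false))]

theorem two_of_strong {ι Φ : Type} [Fintype ι] [DecidableEq ι] {R : RootSys ι Φ} (T : ChevTab R) (hR : R.NoG2)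
    (h2 : ∀ r s, R.pair r s = -2 → s = R.neg r) {G : Type*} [Group G] {x : Φ → ZMod 2 → G} (h : T.StrongComm x) {r s : Φ}
    (h1 : s ≠ r) (h1' : s ≠ R.neg r) : ((∀ k, R.α k ≠ R.α r + R.α s) → Commute (x r 1) (x s 1)) ∧
      ∀ k, R.α k = R.α r + R.α s → x s 1 * x r 1 = x r 1 * x s 1 * x k 1 := by
  have n : ∀ r s, s ≠ R.neg r → R.cr r s 2 = none := fun r s h => Option.eq_none_iff_forall_ne_some.2 fun k e =>
    h (h2 r s (hR.of_two h (cr_eq_some.1 e)).1)
  have e := h r s h1 h1' 1 1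
  rw [T.commProd_noG2 hR, n r s h1', n s r fun e => h1' (by rw [e, RootSys.neg_neg])] at e
  simp only [Option.elim, mul_one] at e
  refine ⟨fun f => ?_, fun k e' => ?_⟩
  · rw [show R.cr r s 1 = none from Option.eq_none_iff_forall_ne_some.2 fun k g => f k (by simpa using cr_eq_some.1 g)] at e
    exact ((mul_one _).symm.trans e.symm :)
  replace e' : R.α k = (1 : ℕ) • R.α r + R.α s := by simpa using e'
  have m : ((T.M r s 1 : ℤ) : ZMod 2) = 1 := by
    have := T.M_abs r s k s 1 0 h1 h1' one_pos e' (by simp) fun m hm => by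
      have a := congrArg (R.cv r) e'
      have b := congrArg (R.cv r) hm
      have c := hR r k
      simp only [map_add, map_sub, zero_add, one_smul, cv_α, pair_self] at a b
      have d := h2 r m (by have := hR.ge r m; omega)
      rw [d, R.α_neg] at hm
      exact R.α_ne_zero s (by simpa using hm.symm)
    rcases Int.natAbs_eq_iff.1 this with e | e <;> rw [e] <;> rfl
  rw [cr_eq_some.2 e', m] at e
  exact e

instance decIx : DecidableEq Ix := fun a b => by
  rcases a with a | a <;> rcases b with b | b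
  exacts [decidable_of_iff _ Sum.inl_injective.eq_iff.symm, isFalse nofun, isFalse nofun,
    decidable_of_iff (∀ i, a i = b i) (funext_iff.symm.trans Sum.inr_injective.eq_iff.symm)]

theorem ph_inj : ∀ r s : Rt (2 * 4) false, ph r = ph s → r = s := by decide +kernel
theorem ph_cm' : ∀ r s : Rt (2 * 4) false, Cm (ph r) (ph s) →
    s = r ∨ s ≠ r.neg ∧ ∀ k : Rt (2 * 4) false, ∃ i, k.v i ≠ r.v i + s.v i := by decide +kernel
theorem ph_ad' : ∀ r s k : Rt (2 * 4) false, Ad (ph r) (ph s) (ph k) → ∀ i, k.v i = r.v i + s.v i := by decide +kernel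
theorem ph_ad'' : ∀ r s k : Rt (2 * 4) false, Ad (ph r) (ph s) (ph k) → s ≠ r ∧ s ≠ r.neg := by decide +kernel
theorem ph_ng : ∀ (r : Rt (2 * 4) false) i, ph r = .inl (i, false) → ph r.neg = .inl (i, true) := by decide +kernel
theorem ph_par : ∀ r : Rt (2 * 4) false, 0 ≤ (rootD (n := 4) (by decide)).α r 1 → Par (ph r) := by decide +kernel
theorem par_cm : ∀ r, Par r → r = .inl (0, false) ∨ Cm r (.inl (0, false)) := by decide +kernel

theorem exists_rr : ∃ y : Ix → Omega (ZMod 2) (quadFormPlus 4 (ZMod 2)), RR y := by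
  obtain ⟨S0, hF0, htop0, -, hT0, -⟩ := exists_omega_D (ZMod 2) (n := 4) (by decide) (by decide)
  let e : Omega (ZMod 2) (quadFormPlus 4 (ZMod 2)) ≃* _ := commutatorCongr (isoEquiv (qPlus 4 (ZMod 2)))
  obtain ⟨S, hF, htop, hT⟩ : ∃ S : ChevSys (rootD (n := 4) (by decide)) (ZMod 2) (Omega (ZMod 2) (quadFormPlus 4 (ZMod 2))),
      S.Faithful ∧ S.grp = ⊤ ∧ (repD (n := 4) (by decide) (carJW _)).tab.StrongComm S.x :=
    ⟨S0.map e.symm.toMonoidHom, .of_injective (φ := e.toMonoidHom) (fun r t => e.apply_symm_apply _) e.injective hF0,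
      ChevSys.map_grp_eq htop0 e.symm.surjective, hT0.map _⟩
  clear hF0 htop0 hT0 S0 e
  generalize Omega (ZMod 2) (quadFormPlus 4 (ZMod 2)) = G at *
  choose ps hp using ph_surj
  have tw := fun {r s} => two_of_strong _ (eucD _).noG2 (fun r s h => ph_neg r s (pair_D _ r s ▸ h)) hT (r := r) (s := s)
  have sq : ∀ r, S.x r 1 * S.x r 1 = 1 := fun r => by rw [← S.x_add]; exact S.x_zero r
  have cm : ∀ r s, Cm r s → Commute (S.x (ps r) 1) (S.x (ps s) 1) := fun r s h => by
    rcases ph_cm' (ps r) (ps s) (by rwa [hp, hp]) with f | ⟨f, g⟩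
    · rw [f]
    by_cases k : ps s = ps r
    · rw [k]
    exact (tw k f).1 fun k e => let ⟨i, n⟩ := g k; n (congrFun ((eucD _).add_iff.1 e) i)
  have ad : ∀ r s k, Ad r s k → S.x (ps s) 1 * S.x (ps r) 1 = S.x (ps r) 1 * S.x (ps s) 1 * S.x (ps k) 1 := fun r s k h =>
    have c : Ad (ph (ps r)) (ph (ps s)) (ph (ps k)) := by rwa [hp, hp, hp]
    let ⟨a, b⟩ := ph_ad'' _ _ _ c; (tw a b).2 _ ((eucD _).add_iff.2 (funext (ph_ad' _ _ _ c)))
  have ne : ∀ r, S.x r 1 ≠ 1 := fun r e => one_ne_zero (hF.x_eq_one_iff.1 e)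
  have gen : ∀ K : Subgroup _, (∀ r, Par r → S.x (ps r) 1 ∈ K) → S.P {1}ᶜ ≤ K := fun K h => by
    rw [S.P_eq]
    refine sup_le (PreSys.H_le_iff.2 fun r t => ?_) (PreSys.XS_le.2 fun r m t => ?_)
    · rw [Subsingleton.elim t 1, PreSys.h_one]; exact one_mem _
    rcases z2 t with rfl | rfl
    · rw [S.x_zero]; exact one_mem _
    · exact ph_inj _ _ (hp (ph r)) ▸ h _ (ph_par r (by simpa [fJ_compl] using m))
  have co := hF.isCoatom_P htop 1
  have eq : S.P {1}ᶜ = 𝐂[S.x (ps (.inl (0, false))) 1] := by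
    refine ((co.le_iff.1 (gen _ fun r h => cmc.1 ((par_cm r h).elim (fun e => e ▸ .refl _) fun e => (cm _ _ e).symm))).resolve_left
      fun e => ?_).symm
    have := ad (.inl (0, false)) (.inr fun _ => true) (.inr (Function.update (fun _ => true) 0 false)) (by decide)
    rw [← (cmc.2 (e ▸ mem_top _)).eq, left_eq_mul] at this
    exact ne _ this
  refine ⟨fun r => S.x (ps r) 1, fun r => sq _, cm, ad, fun i => ?_, fun r => ne _, fun K h => eq ▸ gen K h, eq ▸ co⟩
  have := S.n_conj_self (ps (.inl (i, false))) 1 1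
  rw [PreSys.n, show (rootD (n := 4) (by decide)).neg _ = ps (.inl (i, true)) from
    ph_inj _ _ ((ph_ng _ _ (hp _)).trans (hp _).symm)] at this
  have a := sq (ps (.inl (i, false)))
  have b := sq (ps (.inl (i, true)))
  change _ * S.x _ 1 * S.x _ 1 * _ * (S.x _ 1 * S.x _ 1 * S.x _ 1)⁻¹ = S.x _ 1 at this
  generalize S.x (ps (.inl (i, false))) 1 = u at *
  generalize S.x (ps (.inl (i, true))) 1 = v at *
  rw [mul_assoc _ u u, a, mul_one, mul_inv_rev, mul_inv_rev, inv2 a, inv2 b] at this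
  rw [pow_three', ← b]; nth_rw 4 [← this]; group

end Cfsg.Lib.O83
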