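import Cfsg.Agent.Lib.O83.K1
import Cfsg.Agent.Lib.Inv.Dihedral

/-! Root elements of `Ω₈⁺(2)`: the extraspecial group. -/

set_option autoImplicit false

namespace Cfsg.Lib.O83

open Subgroup Cfsg.Lib.BG Cfsg.Lib.O8 DihedralGroup
open scoped Cfsg.Lib.Transfer

variable {G : Type*} [Group G] {y : Ix → G} {a b e f g x z : G} {u v : V} {k l : ZMod 2} {s : Fin 4 → Bool} {i j : Fin 4}

theorem ip_add (h : z * z = 1) (k l : ZMod 2) : z ^ (k + l).val = z ^ k.val * z ^ l.val := by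
  rcases z2 k with rfl | rfl <;> rcases z2 l with rfl | rfl
  exacts [by simp, by simp, by simp, (pow_zero z).trans (by simpa [ZMod.val_one] using h.symm)]
theorem ip_inj (h : z ≠ 1) (e : z ^ k.val = z ^ l.val) : k = l := by
  rcases z2 k with rfl | rfl <;> rcases z2 l with rfl | rfl
  exacts [rfl, absurd (by simpa [ZMod.val_one] using e.symm) h, absurd (by simpa [ZMod.val_one] using e) h, rfl]

/-- sections with a cocycle -/
def Cc (z : G) (W : V → G) (β : V → V → ZMod 2) : Prop :=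
  (∀ u, Commute z (W u)) ∧ ∀ u v, W u * W v = W (u + v) * z ^ (β u v).val

theorem Cc.mul {W W' : V → G} {β β' : V → V → ZMod 2} (h : Cc z W β) (h' : Cc z W' β') (zz : z * z = 1)
    (c : ∀ u v, Commute (W' u) (W v)) : Cc z (fun v => W v * W' v) fun u v => β u v + β' u v :=
  ⟨fun u => (h.1 u).mul_right (h'.1 u), fun u v => by
    rw [(c u v).mul_mul_mul_comm, h.2, h'.2, ip_add zz, ((h'.1 _).pow_left _).mul_mul_mul_comm]⟩

theorem cc_of {A B : V → ZMod 2} (ee : e * e = 1) (ff : f * f = 1) (ze : Commute z e) (zf : Commute z f) (c : f * e = e * f * z)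
    (hA : ∀ u v, A (u + v) = A u + A v) (hB : ∀ u v, B (u + v) = B u + B v) :
    Cc z (fun v => e ^ (A v).val * f ^ (B v).val) fun u v => B u * A v :=
  ⟨fun _ => (ze.pow_right _).mul_right (zf.pow_right _), fun u v => by
    have : ∀ k l : ZMod 2, f ^ k.val * e ^ l.val = e ^ l.val * f ^ k.val * z ^ (k * l).val := fun k l => by
      rcases z2 k with rfl | rfl <;> rcases z2 l with rfl | rfl <;> simp [ZMod.val_one, c]
    beta_reduce
    rw [hA, hB, ip_add ee, ip_add ff, mul_assoc, ← mul_assoc (f ^ _), this, mul_assoc _ (z ^ _), (zf.pow_pow _ _).eq]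
    simp only [mul_assoc]⟩

/-- a basis of the exponent vectors of sum zero -/
def hv : Fin 4 → Z4 := ![0, ![1, 1, 2, 2], ![1, 2, 1, 2], ![1, 2, 2, 1]]
/-- the vector of a root -/
def vr (s : Fin 4 → Bool) : V := fv ((if s 1 then hv 1 else 0) + (if s 2 then hv 2 else 0) + if s 3 then hv 3 else 0)
/-- first roots of the hyperbolic pairs -/
def sa (i : Fin 4) : Fin 4 → Bool := fun j => j ≠ 0 ∧ j = i
/-- second roots of the hyperbolic pairs -/
def sb (i : Fin 4) : Fin 4 → Bool := fun j => j ≠ 0 ∧ j ≠ i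
/-- one factor -/
def dw (y : Ix → G) (i : Fin 4) (v : V) : G := y (.inr (sa i)) ^ (bf v (vr (sb i))).val * y (.inr (sb i)) ^ (bf v (vr (sa i))).val
/-- the section -/
def ww (y : Ix → G) (v : V) : G := dw y 0 v * (dw y 1 v * (dw y 2 v * dw y 3 v))
/-- one term of the cocycle -/
def b1 (i : Fin 4) (u v : V) : ZMod 2 := bf u (vr (sa i)) * bf v (vr (sb i))
/-- the cocycle -/
def bb (u v : V) : ZMod 2 := b1 0 u v + (b1 1 u v + (b1 2 u v + b1 3 u v))

theorem bb_self : ∀ v, bb v v = qf v := by decide +kernel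
theorem bb_sym (u v : V) : bb u v + bb v u = bf u v := by
  have := bb_self (u + v)
  rw [qf_add, ← bb_self, ← bb_self] at this
  simp only [bb, b1, bf_add] at this ⊢
  linear_combination this
theorem sab : ∀ s : Fin 4 → Bool, s 0 = false → ∃ i, (∀ j, s j = sa i j) ∨ ∀ j, s j = sb i j := by decide +kernel
theorem bf_ab : ∀ i j, bf (vr (sa i)) (vr (sa j)) = 0 ∧ bf (vr (sb i)) (vr (sb j)) = 0 ∧
    bf (vr (sa i)) (vr (sb j)) = (if i = j then 1 else 0) ∧ bf (vr (sb i)) (vr (sa j)) = if i = j then 1 else 0 := by decide +kernel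
theorem cm_ab : ∀ i j, i ≠ j → Cm (.inr (sa i)) (.inr (sa j)) ∧ Cm (.inr (sa i)) (.inr (sb j)) ∧ Cm (.inr (sb i)) (.inr (sa j)) ∧
    Cm (.inr (sb i)) (.inr (sb j)) := by decide +kernel

set_option hygiene false in
local notation "𝐳" => y (.inl (0, false))

namespace RR

variable (h : RR y)
include h

theorem ze (e : s 0 = false) : Commute 𝐳 (y (.inr s)) := h.cm _ _ e
theorem cc : Cc 𝐳 (ww y) bb := by
  have k : ∀ i, Cc 𝐳 (dw y i) (b1 i) := fun i => cc_of (h.sq _) (h.sq _) (h.ze rfl) (h.ze rfl)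
    (h.ad _ _ _ (by revert i; decide)) (fun _ _ => bf_add ..) fun _ _ => bf_add ..
  have c : ∀ i j, i ≠ j → ∀ u v, Commute (dw y i u) (dw y j v) := fun i j n u v =>
    let ⟨a, b, c, d⟩ := cm_ab i j n
    (((h.cm _ _ a).pow_pow _ _).mul_right ((h.cm _ _ b).pow_pow _ _)).mul_left
      (((h.cm _ _ c).pow_pow _ _).mul_right ((h.cm _ _ d).pow_pow _ _))
  exact (k 0).mul ((k 1).mul ((k 2).mul (k 3) (h.sq _) (c 3 2 (by decide))) (h.sq _) fun u v =>
    (c 2 1 (by decide) u v).mul_left (c 3 1 (by decide) u v)) (h.sq _) fun u v =>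
    (c 1 0 (by decide) u v).mul_left ((c 2 0 (by decide) u v).mul_left (c 3 0 (by decide) u v))
omit h in
theorem w0 : ww y 0 = 1 := by simp [ww, dw, bf_zero]
omit h in
theorem wr (e : s 0 = false) : ww y (vr s) = y (.inr s) := by
  obtain ⟨i, e | e⟩ := sab s e <;> obtain rfl := funext e <;> simp only [ww, dw, bf_ab] <;> fin_cases i <;> simp [ZMod.val_one]
theorem wm (u v : V) (k l : ZMod 2) : ww y u * 𝐳 ^ k.val * (ww y v * 𝐳 ^ l.val) = ww y (u + v) * 𝐳 ^ (bb u v + (k + l)).val := by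
  rw [((h.cc.1 v).pow_left _).mul_mul_mul_comm, h.cc.2, ip_add (h.sq _), ip_add (h.sq _), mul_assoc]

/-- the extraspecial group -/
def Q : Subgroup G where
  carrier := {g | ∃ v, ∃ k : ZMod 2, g = ww y v * 𝐳 ^ k.val}
  one_mem' := ⟨0, 0, by simp [w0]⟩
  mul_mem' := by rintro _ _ ⟨u, k, rfl⟩ ⟨v, l, rfl⟩; exact ⟨_, _, h.wm ..⟩
  inv_mem' := by
    rintro _ ⟨u, k, rfl⟩
    exact ⟨u, k + bb u u, inv_eq_of_mul_eq_one_right (by
      rw [h.wm, vself, w0, (by decide : ∀ a b : ZMod 2, a + (b + (b + a)) = 0)]; simp)⟩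

theorem w_inj (e : ww y u * 𝐳 ^ k.val = ww y v * 𝐳 ^ l.val) : u = v := by
  have c : ∀ t u (k : ZMod 2), Commute (ww y t * 𝐳 ^ (0 : ZMod 2).val) (ww y u * 𝐳 ^ k.val) ↔ bf t u = 0 := fun t u k => by
    rw [Commute, SemiconjBy, h.wm, h.wm, add_comm u, mul_right_inj, ← bb_sym, add_comm k]
    exact ⟨fun e => add_right_cancel (ip_inj (h.ne _) e) ▸ CharTwo.add_self_eq_zero _, fun e => by rw [CharTwo.add_eq_zero.1 e]⟩
  refine vadd0.1 (by_contra fun n => ?_)
  obtain ⟨t, f⟩ := bf_nd n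
  have := (c t u k).symm.trans (e ▸ c t v l)
  rw [bf_add'] at f
  revert f this
  exact (by decide : ∀ a b : ZMod 2, a + b = 1 → ¬ (a = 0 ↔ b = 0)) _ _

open Classical in
/-- the projection -/
noncomputable def π (g : G) : V := if m : g ∈ h.Q then m.choose else 0

theorem π_w (v : V) (k : ZMod 2) : h.π (ww y v * 𝐳 ^ k.val) = v := by
  have m : ww y v * 𝐳 ^ k.val ∈ h.Q := ⟨v, k, rfl⟩
  obtain ⟨l, e⟩ := m.choose_spec
  exact (dif_pos m).trans (h.w_inj e).symm

theorem q0 : Q0 𝐳 h.Q h.π where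
  zz := h.sq _
  z1 := h.ne _
  zQ := ⟨0, 1, by simp [w0, ZMod.val_one]⟩
  cz := by rintro _ ⟨u, k, rfl⟩; exact (h.cc.1 u).mul_right (.self_pow _ _)
  π_mul := by rintro _ _ ⟨u, k, rfl⟩ ⟨v, l, rfl⟩; rw [h.wm, π_w, π_w, π_w]
  π_zero := by
    rintro _ ⟨u, k, rfl⟩
    rw [π_w]
    refine ⟨?_, fun e => e.elim (fun e => h.w_inj (l := 0) (e.trans (by simp [w0]))) fun e =>
      h.w_inj (l := 1) (e.trans (by simp [w0, ZMod.val_one]))⟩
    rintro rfl
    rcases z2 k with rfl | rfl <;> simp [w0, ZMod.val_one]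
  sur v := ⟨_, ⟨v, 0, rfl⟩, h.π_w ..⟩
  sq := by rintro _ ⟨u, k, rfl⟩; rw [h.wm, π_w, vself, w0, one_mul, CharTwo.add_self_eq_zero, add_zero, bb_self]

theorem eQ (e : s 0 = false) : y (.inr s) ∈ h.Q := ⟨vr s, 0, by simp [wr e]⟩
theorem πe (e : s 0 = false) : h.π (y (.inr s)) = vr s := by simpa [wr e] using h.π_w (vr s) 0
theorem Q_le {K : Subgroup G} (m : 𝐳 ∈ K) (o : ∀ s, s 0 = false → y (.inr s) ∈ K) : h.Q ≤ K := by
  have k : ∀ i v, dw y i v ∈ K := fun i v => mul_mem (pow_mem (o _ rfl) _) (pow_mem (o _ rfl) _)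
  rintro _ ⟨u, l, rfl⟩
  exact mul_mem (mul_mem (k _ _) (mul_mem (k _ _) (mul_mem (k _ _) (k _ _)))) (pow_mem m _)

end RR

end Cfsg.Lib.O83
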