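import Cfsg.Agent.Lib.O83.K2

/-! Root elements of `Ω₈⁺(2)`: the action of the centraliser on the extraspecial group. -/

set_option autoImplicit false

namespace Cfsg.Lib.O83

open Subgroup Cfsg.Lib.BG Cfsg.Lib.Transfer Cfsg.Lib.O8 DihedralGroup
open scoped Cfsg.Lib.Transfer

variable {G : Type*} [Group G] {y : Ix → G} {a b x z : G} {g : Om} {s : Fin 4 → Bool} {i j : Fin 4}

/-- the action of a root element -/
def ga (i : Fin 4) (b : Bool) : Om := if b then tt true i * rot (hv i) else tt true i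
/-- the action of one factor -/
def r1 (i : Fin 4) : D3 → Om
  | r m => rot (hv i) ^ (m.cast : ℤ)
  | sr m => tt true i * rot (hv i) ^ (m.cast : ℤ)
/-- the action of the Levi factor -/
def r3 (x y w : D3) : Om := r1 1 x * (r1 2 y * r1 3 w)
/-- coordinates of exponent vectors -/
def mc (i : Fin 4) (c : Z4) : D3 := r (c 0 * hv i 0 + c 1 * hv i 1 + c 2 * hv i 2 + c 3 * hv i 3)
/-- reflections -/
def eb (b : Bool) : D3 := if b then sr 0 else 1

theorem ga_vr : ∀ i ≠ 0, ∀ b, ∀ s : Fin 4 → Bool, s 0 = false → ∀ j,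
    ac (ga i b) (vr s) j = (if s i = b then vr s else vr s + vr (Function.update s i b)) j := by decide +kernel
theorem ga_mul : ∀ i, ga i false * ga i true = rot (hv i) := by decide +kernel
theorem r3_one : ∀ x y w, r3 x y w = 1 → x = 1 ∧ y = 1 ∧ w = 1 := by decide +kernel
theorem r3_inV : ∀ x y w, InV (r3 x y w).right := by decide +kernel
theorem r3_sg : ∀ x y w, (r3 x y w).right = 1 → ∃ c, r3 x y w = rot c ∨ r3 x y w = srot c := by decide +kernel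
theorem r3_ne : ∀ x y w, r3 x y w ≠ rot (Pi.single 0 1) := by decide +kernel
theorem r3_rot : ∀ c, sm c = 0 → r3 (mc 1 c) (mc 2 c) (mc 3 c) = rot c := by decide +kernel
theorem r3_tt : ∀ b k, ∃ c d e, r3 (eb c) (eb d) (eb e) = tt b k := by decide +kernel

theorem Cd0.cast {Q : Subgroup G} (h : Cd0 z Q) (e : Qz z = Q) : ∃ h' : Cd0 z (Qz z), h'.π = h.π ∧ h'.ρ = h.ρ := by
  subst e; exact ⟨h, rfl, rfl⟩

set_option hygiene false in
local notation "𝐳" => y (.inl (0, false))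

namespace RR

variable (h : RR y)
include h

/-- `a` acts as `g` -/
def Ac (a : G) (g : Om) : Prop := Commute 𝐳 a ∧ ∀ x ∈ h.Q, a * x * a⁻¹ ∈ h.Q ∧ h.π (a * x * a⁻¹) = ac g (h.π x)

/-- the graph of the action -/
def Δ0 : Submonoid (G × Om) where
  carrier := {p | h.Ac p.1 p.2}
  one_mem' := ⟨.one_right _, fun x m => by simpa [ac_one] using m⟩
  mul_mem' := fun {p q} a b => ⟨a.1.mul_right b.1, fun x m => by
    rw [Prod.fst_mul, Prod.snd_mul, ← cjj, ac_mul, ← (b.2 x m).2]; exact a.2 _ (b.2 x m).1⟩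
/-- the graph of the action -/
def Δ [Finite G] : Subgroup (G × Om) := ⟨h.Δ0, fun {p} m =>
  Submonoid.powers_le.2 m ((isOfFinOrder_of_finite p).mem_powers_iff_mem_zpowers.2 (inv_mem (mem_zpowers p)))⟩

theorem ac_of (c : Commute 𝐳 a) (e : ∀ s, s 0 = false → a * y (.inr s) * a⁻¹ ∈ h.Q ∧ h.π (a * y (.inr s) * a⁻¹) = ac g (vr s)) :
    h.Ac a g := by
  have q := h.q0
  refine ⟨c, fun x m => (h.Q_le (K := ⟨⟨⟨{x | x ∈ h.Q ∧ a * x * a⁻¹ ∈ h.Q ∧ h.π (a * x * a⁻¹) = ac g (h.π x)}, fun p p' =>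
    ⟨mul_mem p.1 p'.1, mq (mul_mem p.2.1 p'.2.1) conj_mul, by rw [← conj_mul, q.π_mul p.2.1 p'.2.1, q.π_mul p.1 p'.1, ac_add, p.2.2, p'.2.2]⟩⟩,
    one_mem _, by simpa [q.π_one] using (ac_zero g).symm⟩, fun p =>
    ⟨inv_mem p.1, mq (inv_mem p.2.1) conj_inv, by rw [← conj_inv, q.π_inv p.2.1, q.π_inv p.1, p.2.2]⟩⟩)
    ⟨q.zQ, by rw [cj_eq c.symm, q.π_z, ac_zero]; exact ⟨q.zQ, rfl⟩⟩ (fun s k => ⟨h.eQ k, (h.πe k).symm ▸ e s k⟩) m).2⟩

theorem ac_Q (m : a ∈ h.Q) : h.Ac a 1 := ⟨h.q0.cz m, fun _ o => ⟨mul_mem (mul_mem m o) (inv_mem m), by rw [h.q0.π_cj m o, ac_one]⟩⟩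

theorem ac_y (n : i ≠ 0) (b : Bool) : h.Ac (y (.inl (i, b))) (ga i b) := h.ac_of (h.cm _ _ n.symm) fun s k => by
  rw [funext (ga_vr i n b s k)]
  split_ifs with e
  · rw [cj_eq (h.cm (.inl (i, b)) (.inr s) e)]; exact ⟨h.eQ k, h.πe k⟩
  have k' : Function.update s i b 0 = false := (Function.update_of_ne n.symm ..).trans k
  rw [inv2 (h.sq _), mul_assoc, h.ad (.inl (i, b)) (.inr s) (.inr _) ⟨e, fun _ => rfl⟩, ← mul_assoc, ← mul_assoc, h.sq, one_mul,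
    h.q0.π_mul (h.eQ k) (h.eQ k'), h.πe k, h.πe k']
  exact ⟨mul_mem (h.eQ k) (h.eQ k'), rfl⟩

theorem tinv (i : Fin 4) : y (.inl (i, false)) * (y (.inl (i, false)) * y (.inl (i, true))) * (y (.inl (i, false)))⁻¹ =
    (y (.inl (i, false)) * y (.inl (i, true)))⁻¹ := by
  rw [← mul_assoc, h.sq, one_mul, mul_inv_rev, inv2 (h.sq (.inl (i, true)))]

/-- one factor of the Levi subgroup -/
def f (i : Fin 4) : D3 →* G := Inv.dihedralHom (h.sq _) (h.tinv i) (h.br i)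

theorem cf (e : ∀ b, Commute a (y (.inl (i, b)))) : ∀ x, Commute a (h.f i x)
  | r _ => ((e _).mul_right (e _)).zpow_right _
  | sr _ => (e _).mul_right (((e _).mul_right (e _)).zpow_right _)
theorem cy (n : j ≠ i) (b : Bool) (x : D3) : Commute (y (.inl (j, b))) (h.f i x) := h.cf (fun c => h.cm (.inl (j, b)) (.inl (i, c)) n) x
theorem cff (n : j ≠ i) (x w : D3) : Commute (h.f i x) (h.f j w) := h.cf (fun b => (h.cy n b x).symm) w

/-- the Levi subgroup -/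
def F : D3 × D3 × D3 →* G := (h.f 1).noncommCoprod ((h.f 2).noncommCoprod (h.f 3) (h.cff (by decide))) fun x w =>
  (h.cff (by decide) x w.1).mul_right (h.cff (by decide) x w.2)

theorem F_eq (x v w : D3) : h.F (x, v, w) = h.f 1 x * (h.f 2 v * h.f 3 w) := rfl
theorem cF (b : Bool) (x : D3 × D3 × D3) : Commute (y (.inl (0, b))) (h.F x) :=
  (h.cy (by decide) b _).mul_right ((h.cy (by decide) b _).mul_right (h.cy (by decide) b _))

open Classical in
/-- the action -/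
noncomputable def ρ (a : G) : Om := if m : ∃ g, h.Ac a g then m.choose else 1

theorem ρ_eq (e : h.Ac a g) : h.ρ a = g := (dif_pos ⟨g, e⟩).trans (om_ext fun v =>
  let ⟨x, m, k⟩ := h.q0.sur v; by rw [← k, ← ((⟨g, e⟩ : ∃ g, h.Ac a g).choose_spec.2 x m).2, (e.2 x m).2])

variable [Finite G]

theorem ac_f (n : i ≠ 0) (x : D3) : (h.f i x, r1 i x) ∈ h.Δ := by
  have p : (y (.inl (i, false)), ga i false) ∈ h.Δ := h.ac_y n false
  have q := mul_mem p (show (y (.inl (i, true)), ga i true) ∈ h.Δ from h.ac_y n true)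
  rw [Prod.mk_mul_mk, ga_mul] at q
  rcases x with m | m
  exacts [zpow_mem q _, mul_mem p (zpow_mem q _)]
theorem ac_F (x v w : D3) : h.Ac (h.F (x, v, w)) (r3 x v w) :=
  mul_mem (h.ac_f (by decide) x) (mul_mem (h.ac_f (by decide) v) (h.ac_f (by decide) w))

theorem dec (c : Commute 𝐳 a) : ∃ q ∈ h.Q, ∃ x v w, a = q * h.F (x, v, w) ∧ h.Ac a (r3 x v w) := by
  have k : ∀ i ≠ 0, ∀ x, h.f i x ∈ h.F.range := fun i n x => by
    fin_cases i
    exacts [absurd rfl n, ⟨(x, 1, 1), by simp [F_eq]⟩, ⟨(1, x, 1), by simp [F_eq]⟩, ⟨(1, 1, x), by simp [F_eq]⟩]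
  obtain ⟨q, m, _, ⟨⟨x, v, w⟩, rfl⟩, rfl⟩ := (Core.mem_sup_of_le_normalizer_left (show h.F.range ≤ 𝐍(h.Q) from fun _ ⟨⟨x, v, w⟩, e⟩ =>
    mem_normalizer_fintype fun p o => e ▸ ((h.ac_F x v w).2 p o).1)).1 (h.gen _ (fun r p => by
      rcases r with ⟨i, b⟩ | s
      · by_cases n : i = 0
        · subst n; cases b
          exacts [mem_sup_left h.q0.zQ, absurd rfl p]
        cases b
        · exact mem_sup_right (mq (k i n (sr 0)) (by simp [f, Inv.dihedralHom_sr]))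
        · exact mem_sup_right (mq (k i n (sr 1)) (by
            rw [f, Inv.dihedralHom_sr, show ((1 : ZMod 3).cast : ℤ) = 1 from rfl, zpow_one, ← mul_assoc, h.sq, one_mul]))
      · exact mem_sup_left (h.eQ p)) (cmc.1 c))
  exact ⟨q, m, x, v, w, rfl, one_mul (r3 x v w) ▸ mul_mem (show (q, 1) ∈ h.Δ from h.ac_Q m) (show (_, _) ∈ h.Δ from h.ac_F x v w)⟩

/-- the coordinates -/
noncomputable def cd0 : Cd0 𝐳 h.Q where
  π := h.π
  ρ := h.ρ
  q := h.q0
  nQ c m := let ⟨_, _, _, _, _, _, e⟩ := h.dec c; (e.2 _ m).1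
  act c m := let ⟨_, _, _, _, _, _, e⟩ := h.dec c; h.ρ_eq e ▸ (e.2 _ m).2
  ker c k := by
    obtain ⟨q, m, x, v, w, rfl, e⟩ := h.dec c
    obtain ⟨rfl, rfl, rfl⟩ := r3_one _ _ _ ((h.ρ_eq e).symm.trans k)
    simpa [F_eq] using m
  E c s := ⟨_, h.cF false _, (h.ρ_eq (h.ac_F ..)).trans (r3_rot c s)⟩
  sg a c k := let ⟨_, _, _, _, _, _, e⟩ := h.dec c; h.ρ_eq e ▸ r3_sg _ _ _ (h.ρ_eq e ▸ k)

theorem main : ∃ (z : G) (h : Cd z), IsCoatom 𝐂[z] ∧ (∀ a, Commute z a → InV (h.ρ a).right) ∧ (¬ ∀ c, rot c ∈ h.Γ) ∧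
    ∃ t0 : G, ∃ t : Z4 → G, t0 ^ 3 = 1 ∧ t0 ≠ 1 ∧ z * t0 * z⁻¹ = t0⁻¹ ∧ ∀ c, sm c = 0 →
      t c ^ 3 = 1 ∧ Commute z (t c) ∧ Commute t0 (t c) ∧ h.ρ (t c) = rot c ∧ ∀ c', sm c' = 0 → Commute (t c) (t c') := by
  obtain ⟨d, e1 : _ = h.π, e2 : _ = h.ρ⟩ := h.cd0.cast h.cd0.core
  have cj : ∀ {r s k}, Ad r s k → y r * y s * (y r)⁻¹ = y s * y k := fun e => by
    rw [inv2 (h.sq _), mul_assoc, h.ad _ _ _ e, ← mul_assoc, ← mul_assoc, h.sq, one_mul]
  have cm : ∀ {r s}, Cm r s → y r * y s * (y r)⁻¹ = y s := fun e => cj_eq (h.cm _ _ e)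
  have sw : ∀ {p q r s}, Cm p r → Ad q r s → Ad p s r → Cm r s → y p * y q * y p * y r * (y p * y q * y p)⁻¹ = y s :=
    fun a b c d => by rw [← cjj, ← cjj, cm a, cj b, ← conj_mul, cm a, cj c, ← mul_assoc, (h.cm _ _ d).eq, mul_assoc, h.sq, mul_one]
  have nz := sw (p := .inr (sb 0)) (q := .inr fun j => !sb 0 j) (r := .inl (0, false)) (s := .inr (sa 0)) (by decide) (by decide)
    (by decide) (by decide)
  have iv : ∀ {p q a b}, y p * y q * y p * a * (y p * y q * y p)⁻¹ = b → y p * y q * y p * b * (y p * y q * y p)⁻¹ = a :=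
    fun {p q a b} e => by rw [← e, cjj, show y p * y q * y p * (y p * y q * y p) = 1 by simpa only [inv2 (h.sq p)] using cj_sq (y p) (h.sq q)]; simp
  have aQ : ∀ i ≠ 0, ∀ b, h.f i (eb b) ∈ Qz (y (.inr (sa 0))) := fun i n b => by
    cases b
    · exact mq (one_mem _) (map_one _).symm
    refine nz ▸ mq ((cj_Qz _).2 (h.cd0.core ▸ h.eQ (s := sb i) rfl)) (iv ?_)
    rw [show h.f i (eb true) = y (.inl (i, false)) by simp [f, eb, Inv.dihedralHom_sr], ← cjj, ← cjj,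
      cj (k := .inr (sb i)) (by revert i; decide), ← conj_mul (b := y (.inr fun j => !sb 0 j)), cm (by revert i; decide),
      cj (k := .inl (i, false)) (by revert i; decide),
      ← mul_assoc (y (.inl _)), (h.cm (.inl (i, false)) (.inr (sb i)) (by revert i; decide)).eq, mul_assoc (y _) (y _) (y _), h.sq, mul_one,
      cm (by revert i; decide)]
  refine ⟨_, ⟨d, y (.inr (sa 0)), _, h.cd0.core ▸ h.eQ rfl, e1 ▸ h.πe rfl, nz, iv nz,
    fun b k => let ⟨c, d, e, p⟩ := r3_tt b k; ⟨_, mul_mem (aQ 1 (by decide) c) (mul_mem (aQ 2 (by decide) d) (aQ 3 (by decide) e)),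
      h.cF false (_, _, _), e2 ▸ (h.ρ_eq (h.ac_F ..)).trans p⟩⟩, h.co, fun a c => ?_, fun k => ?_, _,
    fun c => h.F (mc 1 c, mc 2 c, mc 3 c), h.br 0, fun e => h.ne (.inr fun j => j = 0) ?_, h.tinv 0, fun c s => ⟨?_, h.cF false _,
    (h.cF false _).mul_left (h.cF true _), (congrFun e2 _).trans ((h.ρ_eq (h.ac_F ..)).trans (r3_rot c s)), fun c' _ => .map ?_ _⟩⟩
  · obtain ⟨_, _, _, _, _, _, e⟩ := h.dec c
    exact ((congrFun e2 _).trans (h.ρ_eq e)).symm ▸ r3_inV ..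
  · obtain ⟨a, c, p⟩ := d.exΓ (k _)
    obtain ⟨_, _, _, _, _, _, e⟩ := h.dec c
    exact r3_ne _ _ _ ((h.ρ_eq e).symm.trans ((congrFun e2 _).symm.trans p))
  · have := cj (r := .inl (0, true)) (s := .inr (sa 0)) (k := .inr fun j => j = 0) (by decide)
    rwa [eq_inv_of_mul_eq_one_right e, inv2 (h.sq _), cm (by decide), left_eq_mul] at this
  · rw [← map_pow]; simp [mc, show (3 : ZMod 3) = 0 from rfl, F_eq]
  · simp [mc, Commute, SemiconjBy, add_comm]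

end RR

end Cfsg.Lib.O83
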